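import Mathlib
import Cfsg.Agent.H959.T5.Base
import Cfsg.Agent.H141.SY.Alt

/-!
# S3854, the row of the alternating groups (task 2804, helper559)
-/

set_option autoImplicit false

namespace Cfsg.Agent.H559.T5

open Subgroup Equiv Cfsg Cfsg.Agent.H459.Rad Cfsg.Agent.H459.Iface Cfsg.Agent.H301.SY Cfsg.Agent.H959.T5
open Cfsg.Agent.H141.SY

/-- **the row of the alternating groups** -/
theorem noT_alt {n : ℕ} (hn : 5 ≤ n) {p : ℕ} [Fact p.Prime] (hp : 5 ≤ p) :
    Cfsg.Agent.H959.T5.NoT p (alternatingGroup (Fin n)) := by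
  intro x hx hR hT
  have hpp : p.Prime := Fact.out
  obtain ⟨a, rfl⟩ := Cfsg.Agent.H568.autInner_altAll hn hpp (by omega) x hx
  have hc : center ↥(alternatingGroup (Fin n)) = ⊥ :=
    alternatingGroup.center_eq_bot (by rw [Nat.card_eq_fintype_card, Fintype.card_fin]; omega)
  rw [orderOf_injective _ (conj_injective hc)] at hx
  rcases Nat.lt_or_ge p n with h | h
  · exact Cfsg.Agent.H587.AltEnd.not_rc hp h hx hR
  · have hnp : n = p := by
      refine le_antisymm h ?_
      have h1 : p ∣ n.factorial := by
        have h2 := Subgroup.card_subgroup_dvd_card (alternatingGroup (Fin n))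
        rw [Nat.card_perm, Nat.card_eq_fintype_card (α := Fin n), Fintype.card_fin] at h2
        refine Dvd.dvd.trans ?_ h2
        rw [← hx]
        exact orderOf_dvd_natCard _
      exact (hpp.dvd_factorial).1 h1
    subst hnp
    have hs : IsSimpleGroup ↥(alternatingGroup (Fin n)) :=
      alternatingGroup.isSimpleGroup (by rw [Nat.card_eq_fintype_card, Fintype.card_fin]; omega)
    have hna : ¬ IsMulCommutative ↥(alternatingGroup (Fin n)) := by
      intro hcm
      have h1 : center ↥(alternatingGroup (Fin n)) = ⊤ := by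
        rw [eq_top_iff]
        intro a _
        rw [mem_center_iff]
        exact fun b => hcm.is_comm.comm b a
      exact bot_ne_top (hc.symm.trans h1)
    have h2 : 2 ∣ Nat.card ↥(alternatingGroup (Fin n)) := by
      have : Nontrivial (Fin n) := ⟨⟨⟨0, by omega⟩, ⟨1, by omega⟩, by simp [Fin.ext_iff]⟩⟩
      have h3 := two_mul_nat_card_alternatingGroup (α := Fin n)
      rw [Nat.card_perm, Nat.card_eq_fintype_card (α := Fin n), Fintype.card_fin] at h3
      have h4 : 4 ∣ n.factorial := Nat.dvd_factorial (by norm_num) (by omega)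
      omega
    exact m0_false hna h2 hx (TE.of_t2 hc hT) (m0_alt hx)

end Cfsg.Agent.H559.T5
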